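import Cfsg.Agent.H380.Bs.Final
import Cfsg.Agent.H847.Bs.Stmts

/-!
S5733: the statements S27 and S28o of `H847.Bs.Stmts`, from BS12 and BS08 (a), (c).
-/

set_option autoImplicit false

namespace Cfsg.Agent.H380.Bs

open Cfsg.Agent.LieClassical.OrthCore
open Cfsg.Agent.H847.Bs (Inv Frm frmQ nQ noInv S12 S27 S28o)

theorem countO_of (h : S12) : ∃ c : ℝ, 0 < c ∧ ∃ K₀ : ℕ, CountO c K₀ := by
  obtain ⟨c, hc, K₀, hC⟩ := h
  refine ⟨c, hc, K₀, ?_⟩
  intro F V _ _ _ _ _ Q hQ n K hK hd hn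
  have h1 := hC F V Q n K hQ hK hd hn
  rwa [iso_frmQ] at h1

theorem noInv_le {F V : Type} [Field F] [AddCommGroup V] [Module F V] [Finite V]
    (Q : QuadraticForm F V) (Y : Submodule F V) :
    Nat.card {x : V ≃ₗ[F] V // x ∈ E Q ∧ ∀ g ∈ O Q, ¬ Inv x (Y.map (g : V →ₗ[F] V))} ≤ noInv (E Q) Y := by
  have hf : Finite (V ≃ₗ[F] V) := DFunLike.finite _
  have : Finite {x : V ≃ₗ[F] V // x ∈ E Q ∧ ∀ g ∈ E Q, ¬ Inv x (Y.map (g : V →ₗ[F] V))} :=
    Subtype.finite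
  exact Nat.card_le_card_of_injective
    (fun x : {x : V ≃ₗ[F] V // x ∈ E Q ∧ ∀ g ∈ O Q, ¬ Inv x (Y.map (g : V →ₗ[F] V))} =>
      (⟨x.1, x.2.1, fun g hg => x.2.2 g (E_le_O hg)⟩ :
        {x : V ≃ₗ[F] V // x ∈ E Q ∧ ∀ g ∈ E Q, ¬ Inv x (Y.map (g : V →ₗ[F] V))}))
    (fun x y h => Subtype.ext (congrArg (fun z => (z.1 : V ≃ₗ[F] V)) h))

/-- S27 -/
theorem s27_of (h12 : S12) (hM : CountMinus) (hA : CountAdj) : S27 := by
  obtain ⟨c, hc, K₀, hC⟩ := countO_of h12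
  obtain ⟨c', hc', n₀, h⟩ := reducible hc hC hM hA
  refine ⟨c', hc', n₀ + 2, ?_⟩
  intro F V _ _ _ _ _ Q hQ hn Y hY0 hY
  have hfin : Finite V := Module.finite_of_finite F
  have hQ' : Nondeg Q := hQ
  refine le_trans (h F V Q hQ' (by omega) Y hY0 ?_ ?_) (by exact_mod_cast noInv_le Q Y)
  · rintro rfl
    rcases hY with hT | ⟨-, y, hy, e⟩
    · have h1 := Cfsg.Agent.S0760.two_mul_finrank_le Q
        ⟨fun x hx => hQ' x hx, fun y hy => hQ' y fun x => by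
          rw [QuadraticMap.polar_comm]
          exact hy x⟩ ⊤ hT.2
      rw [finrank_top] at h1
      omega
    · have h1 : Module.finrank F V = Module.finrank F (Submodule.span F {y}) := by
        rw [← e, finrank_top]
      have h2 := finrank_span_le_card (R := F) ({y} : Set V)
      have h3 : ({y} : Set V).toFinset.card = 1 := by simp
      omega
  · rcases hY with hT | ⟨-, y, hy, e⟩
    · exact Or.inl hT
    · exact Or.inr (Or.inr ⟨y, hy, e⟩)

/-- S28o -/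
theorem s28o_of (h12 : S12) (hM : CountMinus) (hA : CountAdj) : S28o := by
  obtain ⟨c, hc, K₀, hC⟩ := countO_of h12
  obtain ⟨c', hc', n₀, h⟩ := reducible hc hC hM hA
  refine ⟨c', hc', n₀, ?_⟩
  intro F V _ _ _ _ _ Q hQ hn Y hY0 hY1 hY
  have hfin : Finite V := Module.finite_of_finite F
  have hQ' : Nondeg Q := hQ
  exact le_trans (h F V Q hQ' hn Y hY0 hY1 (Or.inr (Or.inl hY))) (by exact_mod_cast noInv_le Q Y)

end Cfsg.Agent.H380.Bs
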